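import Cfsg.Agent.H162.CC.Tools3
import Cfsg.Agent.H818.StrP.Own
import Cfsg.Agent.KFacts.RgdAutFacts
import Cfsg.Agent.KFacts.RgdFiltClass

/-!
# S3828, task OWN: groups of Lie type of rank at least 2, `p` the characteristic (helper804)

* `crow_own_of_rgd2` : `HasRGD2 p G → CRow p G`;
* `own_cases` : `G` of Lie type of characteristic `p` (any prime, `2` included): `HasRGD2 p G'` for some `G' ≃ G`, or
  `G` is `PSL₂(F)`, `PSU₃(q)`, a Suzuki group, a Ree group `²F₄` (`p = 2`), or a Ree group `²G₂` (`p = 3`);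
* `crow_own` : the corresponding statement for `CRow p G`.
-/

set_option autoImplicit false
set_option linter.unusedSectionVars false

namespace Cfsg.Agent.H804.CRow

open Cfsg CoxeterSystem Cfsg.Agent.ChevalleyStructure.CoxeterGeom Cfsg.Agent.Tits.Roots Cfsg.Agent.Tits.Core
  Cfsg.Agent.Tits.RootComb Cfsg.Agent.Tits.Exchange Cfsg.Agent.Nodes.Reps Cfsg.Agent.Nodes.BNOf
  Cfsg.Agent.Nodes.StabComb Cfsg.Agent.Nodes.Bruhat Cfsg.Agent.Nodes.OppDec Cfsg.Agent.Nodes.LeviDec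
  Cfsg.Agent.GammaTwo.Own Cfsg.Agent.H818.StrP.Own Cfsg.Agent.H162.CCR

section Gen

variable {I W Y : Type*} [Fintype I] [DecidableEq I] [Group W] [Group Y] {M : CoxeterMatrix I}
  {cs : CoxeterSystem M W} {A : I → I → ℤ} {h : IsCartan M A} {r : ℕ} {T : Subgroup Y} {n : I → Y}
  {X : (I → ℤ) → Subgroup Y}

variable (R : RGD cs h r T n X)

include R

/-- **Generation by the minimal parabolic subgroups.** -/
theorem gen_PJ [Finite W] (hI : 2 ≤ Fintype.card I) (hG : GG cs h T X = ⊤)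
    {Γ : Subgroup Y} (hP : ∀ i : I, PJ cs h T X {i} ≤ Γ) : Γ = ⊤ := by
  have hn : Subgroup.closure (Set.range n) ≤ Γ := by
    rw [Subgroup.closure_le]
    rintro _ ⟨i, rfl⟩
    exact hP i (LJ_le_PJ (rp_mem_LJ R (simple_mem_WJ cs (Set.mem_singleton i)) (rp_simple cs R.nsys i)))
  have hne : Nonempty I := Fintype.card_pos_iff.1 (by omega)
  obtain ⟨i0⟩ := hne
  rw [eq_top_iff, ← hG]
  refine sup_le ((T_le_LJ.trans LJ_le_PJ).trans (hP i0)) (RGD.Sup_le ?_)
  rintro x ⟨w, i, rfl⟩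
  obtain ⟨k, hk, hkw⟩ := exists_rp_closure (cs := cs) (hN := R.nsys) w
  rw [← R.conj_rp hkw (isRoot_sr cs h i)]
  have h1 : X (sr i) ≤ Γ := by
    refine le_trans ?_ (hP i)
    exact (RGD.le_Sup (S := RGD.Pos cs h) ⟨isRoot_sr cs h i, sr_nonneg i⟩).trans (RGD.U_le_B.trans B_le_PJ)
  rw [← cj_eq_of_mem (hn hk)]
  exact cj_mono k h1

/-- `O_r(G) = 1` -/
theorem pCore_eq_bot [Finite W] [Finite Y] [Fact r.Prime] (hG : GG cs h T X = ⊤) : pCore r Y = ⊥ := by
  obtain ⟨S, hS⟩ := KFacts.RgdAutFacts.exists_sylow R hG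
  have h1 : pCore r Y ≤ RGD.Sup X (RGD.Pos cs h) := by
    rw [← hS]
    obtain ⟨Q, hQ⟩ := (Lib.Cores.pCore_isPGroup (G := Y) r).exists_le_sylow
    obtain ⟨g, rfl⟩ := MulAction.exists_smul_eq Y S Q
    intro x hx
    have h2 : g * x * g⁻¹ ∈ pCore r Y := Subgroup.Normal.conj_mem inferInstance x hx g
    have h3 := hQ h2
    rw [Sylow.coe_subgroup_smul] at h3
    obtain ⟨y, hy, hyx⟩ := h3
    have h4 : g * y * g⁻¹ = g * x * g⁻¹ := hyx
    have h5 : y = x := by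
      have := congrArg (fun z => g⁻¹ * z * g) h4
      simpa [mul_assoc] using this
    exact h5 ▸ hy
  obtain ⟨k, hk⟩ := exists_rp cs R.nsys (w0 cs)
  have h2 : pCore r Y ≤ UN cs h X := by
    rw [← cj_U R hk]
    intro x hx
    rw [mem_cj]
    have h3 : (k⁻¹) * x * (k⁻¹)⁻¹ ∈ pCore r Y := Subgroup.Normal.conj_mem inferInstance x hx k⁻¹
    rw [inv_inv] at h3
    exact h1 h3
  rw [eq_bot_iff, ← U_inf_UN R]
  exact le_inf h1 h2

end Gen

/-- **Own characteristic, root group data of rank at least two.** -/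
theorem crow_own_of_rgd2 {p : ℕ} [Fact p.Prime] {G : Type*} [Group G] [Finite G] (hG : HasRGD2 p G) : CRow p G := by
  obtain ⟨l, M, A, h, T, n, X, R, hl, hW, hX⟩ := hG
  have hT := KFacts.RgdFilt.GG_eq_top (T := T) hX
  have hO := pCore_eq_bot R hT
  have hI : 2 ≤ Fintype.card (Fin l) := by rwa [Fintype.card_fin]
  obtain ⟨S, hS⟩ := KFacts.RgdAutFacts.exists_sylow R hT
  intro C hC c hc
  by_contra hc1
  -- a conjugate of `c` lies in `U`
  obtain ⟨Q, hQ⟩ := (hC.isPGroup_zpowers hc).exists_le_sylow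
  obtain ⟨g, rfl⟩ := MulAction.exists_smul_eq G S Q
  have hcQ := hQ (Subgroup.mem_zpowers c)
  rw [Sylow.coe_subgroup_smul] at hcQ
  obtain ⟨d, hd, hdc⟩ := hcQ
  have hdc' : g * d * g⁻¹ = c := hdc
  have hdC : d ∈ C := by
    have := hC.conj_mem' g hc
    rw [← hdc'] at this
    have e : g⁻¹ * (g * d * g⁻¹) * g = d := by group
    rwa [e] at this
  have hd1 : d ≠ 1 := by
    rintro rfl
    apply hc1
    rw [← hdc']
    group
  have hdS : d ∈ (S : Subgroup G) := hd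
  refine hC.M_ne_top hO hdC hd1 hdS (gen_PJ R hI hT fun i => ?_)
  refine hC.le_M hO hdC hd1 hdS ?_ ?_
  · intro htop
    have h1 : Subgroup.normalizer ((VJ M.toCoxeterSystem h X {i} : Subgroup G) : Set G) ≠ ⊤ := by
      refine normalizer_ne_top hO (R.isPGroup_Upos.to_le (VJ_le_U {i})) (V_ne_bot R hI i)
    apply h1
    rw [eq_top_iff, ← htop]
    exact PJ_le_normalizer_VJ R {i}
  · have h2 : d ∈ RGD.Sup X (RGD.Pos M.toCoxeterSystem h) := hS ▸ hdS
    exact B_le_PJ (RGD.U_le_B h2)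

section Orthogonal

open Cfsg.Agent.Nodes.Comb Cfsg.Agent.Nodes.WittRoot
open Cfsg.Agent.Nodes.RGDLib Cfsg.Agent.Nodes.WittAll
open Cfsg.Agent.TitsThree Cfsg.Agent.TitsThree.Siegel Cfsg.Agent.TitsThree.WittFrame
  Cfsg.Agent.TitsThree.WittWeyl Cfsg.Agent.TitsThree.FrameCN
open Cfsg.Agent.KFacts.RgdBorelTits Cfsg.Agent.KFacts.RgdFilt Cfsg.Agent.KFacts.RgdFiltWitt
open Cfsg.Agent.Nodes.WittU Cfsg.Agent.Nodes.WittInst
open QuadraticMap
open Cfsg.Agent.LieClassical Cfsg.Agent.LieClassical.OrthCore Cfsg.Agent.LieClassical.OrthTrans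
open Cfsg.Agent.LieClassical.OrthSimple Cfsg.Agent.LieClassical.OrthFinite
open Cfsg.Agent.LieClassical.OrthForms
open Cfsg.Agent.TitsThree.WBridge Cfsg.Agent.TitsThree.KSideO Cfsg.Agent.TitsThree.StdData

variable {F : Type*} [Field F] {m : ℕ}

/-- the orthogonal groups of minus type, all characteristics -/
theorem hasRGD2_minus' [Finite F] (a b : F)
    (hab : ∀ z₁ z₂ : F, z₁ ^ 2 + a * z₁ * z₂ + b * z₂ ^ 2 = 0 → z₁ = 0 ∧ z₂ = 0)
    (hm : 2 ≤ m) {p : ℕ} [Fact p.Prime] [CharP F p] :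
    HasRGD2 p (Cfsg.POmega F (Cfsg.quadFormMinus m F a b)) := by
  rw [← coe_minusForm]
  have hG : LieClassical.OrthTrans.Good (minusForm m F a b) := by
    apply good_of_finite (nondeg_minusForm m F a b hab)
    rw [Module.finrank_fintype_fun_eq_card, Fintype.card_sum, Fintype.card_sum, Fintype.card_fin,
      Fintype.card_fin]
    omega
  have hp : ((embMinus m F a b hab).ngt ⟨(1, 0), -nf a b (1, 0), rfl⟩).c ≠ 0 := by
    change (1 : F)⁻¹ * (-nf a b (1, 0)) ≠ 0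
    simp [nf]
  have hA : AmbT (toFrame (wminus m F a b hab)) p (E (minusForm m F a b)) := by
    by_cases h2 : (2 : F) = 0
    · have hp2 : p = 2 := by
        have h3 : CharP F 2 := CharTwo.of_one_ne_zero_of_two_eq_zero one_ne_zero h2
        exact CharP.eq F ‹CharP F p› h3
      subst hp2
      exact ambT_O _ fun g hg hg2 hb => fixp_minus a b hab h2 hm hG hg hg2 hb
    · exact AmbT.of_amb (amb_O_of_two _ h2) p
  exact hasRGD2_C (model (wminus m F a b hab) hG ⟨_, hp⟩) hA hp hm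

end Orthogonal

theorem exists_pow_of_sq {F : Type} [Field F] [Fintype F] {p q : ℕ} (hpp : p.Prime) [CharP F p]
    (hF : Fintype.card F = q ^ 2) : ∃ j, 1 ≤ j ∧ q = p ^ j ∧ Fintype.card F = p ^ (2 * j) := by
  obtain ⟨k, -, hk⟩ := FiniteField.card F p
  have hq : q ∣ p ^ (k : ℕ) := by rw [← hk, hF]; exact Dvd.intro_left (q ^ 1) (by ring)
  obtain ⟨j, hj, rfl⟩ := (Nat.dvd_prime_pow hpp).1 hq
  have h3 : (k : ℕ) = 2 * j := by
    have h4 : p ^ (k : ℕ) = p ^ (2 * j) := by rw [← hk, hF]; ring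
    exact Nat.pow_right_injective hpp.two_le h4
  have hkpos := k.pos
  exact ⟨j, by omega, rfl, by rw [hF]; ring⟩

/-- **The groups of Lie type of characteristic `p` (any prime) and rank at least two have a root group datum, except
the Ree groups `²F₄`.** -/
theorem own_cases {p : ℕ} [Fact p.Prime] {G : Type*} [Group G] [Finite G] (hG : IsLieTypeChar p G) :
    (∃ (G' : Type) (_ : Group G') (_ : Finite G'), HasRGD2 p G' ∧ Nonempty (G ≃* G')) ∨
    (∃ (F : Type) (_ : Field F) (_ : Fintype F), CharP F p ∧ 4 ≤ Fintype.card F ∧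
      Nonempty (G ≃* Matrix.ProjectiveSpecialLinearGroup (Fin 2) F)) ∨
    (∃ (F : Type) (_ : Field F) (_ : Fintype F) (q : ℕ), CharP F p ∧ 3 ≤ q ∧ Fintype.card F = q ^ 2 ∧
      Nonempty (G ≃* PSU 3 F q)) ∨
    (p = 2 ∧ Lie.IsoSuzuki G) ∨ (p = 2 ∧ Lie.Iso2F4 G) ∨ (p = 3 ∧ Lie.IsoRee G) := by
  have hpp : p.Prime := Fact.out
  rcases hG with h | h | h | h | h | h | h | h | h | h | h
  · obtain ⟨F, iF, iFt, iC, n, hn, h1, ⟨e⟩⟩ := h
    rcases Nat.eq_or_lt_of_le hn with h2 | h2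
    · subst h2
      exact Or.inr (Or.inl ⟨F, iF, iFt, iC, h1 rfl, ⟨e⟩⟩)
    · obtain ⟨n, rfl⟩ : ∃ k, n = k + 1 := ⟨n - 1, by omega⟩
      have : Finite (Matrix.ProjectiveSpecialLinearGroup (Fin (n + 1)) F) := Quotient.finite _
      exact Or.inl ⟨_, _, this, hasRGD2_PSL n (by omega), ⟨e⟩⟩
  · obtain ⟨F, _, _, _, m, hm, -, ⟨e⟩⟩ := h
    have : Finite (PSp m F) := Quotient.finite _
    exact Or.inl ⟨_, _, this, hasRGD2_PSp hm, ⟨e⟩⟩
  · obtain ⟨F, iF, iFt, iC, n, q, hF, hn, h1, ⟨e⟩⟩ := h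
    rcases Nat.eq_or_lt_of_le hn with h2 | h2
    · subst h2
      obtain ⟨j, hj, hqj, -⟩ := exists_pow_of_sq (p := p) hpp hF
      have hq2 : 2 ≤ q := by
        rw [hqj]
        calc 2 ≤ p := hpp.two_le
          _ = p ^ 1 := (pow_one p).symm
          _ ≤ p ^ j := Nat.pow_le_pow_right hpp.pos hj
      have hq3 : q ≠ 2 := fun h3 => h1 ⟨rfl, h3⟩
      exact Or.inr (Or.inr (Or.inl ⟨F, iF, iFt, q, iC, by omega, hF, ⟨e⟩⟩))
    · have : Finite (PSU n F q) := Quotient.finite _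
      exact Or.inl ⟨_, _, this, hasRGD2_PSU hF (by omega), ⟨e⟩⟩
  · obtain ⟨F, _, _, _, m, hm, hodd, ⟨e⟩⟩ := h
    have : Finite (Cfsg.POmega F (Cfsg.quadFormOdd m F)) := Quotient.finite _
    refine Or.inl ⟨_, _, this, hasRGD2_odd ?_ (by omega), ⟨e⟩⟩
    intro h2
    have h3 : CharP F 2 := CharTwo.of_one_ne_zero_of_two_eq_zero one_ne_zero h2
    obtain ⟨k, -, hk⟩ := FiniteField.card F 2
    rw [hk] at hodd
    exact absurd hodd (by
      rw [Nat.not_odd_iff_even]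
      exact (even_two).pow_of_ne_zero k.ne_zero)
  · obtain ⟨F, _, _, _, m, hm, ⟨e⟩⟩ := h
    obtain ⟨n, rfl⟩ : ∃ n, m = n + 3 := ⟨m - 3, by omega⟩
    have : Finite (Cfsg.POmega F (Cfsg.quadFormPlus (n + 3) F)) := Quotient.finite _
    exact Or.inl ⟨_, _, this, hasRGD2_plus n, ⟨e⟩⟩
  · obtain ⟨F, _, _, _, m, a, b, hm, hab, ⟨e⟩⟩ := h
    have : Finite (Cfsg.POmega F (Cfsg.quadFormMinus (m - 1) F a b)) := Quotient.finite _
    exact Or.inl ⟨_, _, this, hasRGD2_minus' a b hab (by omega), ⟨e⟩⟩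
  · exact Or.inl (hasRGD2_exceptional h)
  · exact Or.inl (hasRGD2_twisted h)
  · exact Or.inr (Or.inr (Or.inr (Or.inl h)))
  · exact Or.inr (Or.inr (Or.inr (Or.inr (Or.inl h))))
  · exact Or.inr (Or.inr (Or.inr (Or.inr (Or.inr h))))

/-- **S3828, own characteristic, rank at least two (`²F₄` excepted).** -/
theorem crow_own {p : ℕ} [Fact p.Prime] {G : Type*} [Group G] [Finite G] (hG : IsLieTypeChar p G) :
    CRow p G ∨
    (∃ (F : Type) (_ : Field F) (_ : Fintype F), CharP F p ∧ 4 ≤ Fintype.card F ∧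
      Nonempty (G ≃* Matrix.ProjectiveSpecialLinearGroup (Fin 2) F)) ∨
    (∃ (F : Type) (_ : Field F) (_ : Fintype F) (q : ℕ), CharP F p ∧ 3 ≤ q ∧ Fintype.card F = q ^ 2 ∧
      Nonempty (G ≃* PSU 3 F q)) ∨
    (p = 2 ∧ Lie.IsoSuzuki G) ∨ (p = 2 ∧ Lie.Iso2F4 G) ∨ (p = 3 ∧ Lie.IsoRee G) := by
  rcases own_cases hG with ⟨G', _, _, h, ⟨e⟩⟩ | h
  · exact Or.inl (CRow.of_equiv e (crow_own_of_rgd2 h))
  · exact Or.inr h

/-! ### The families -/

section Families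

variable {p : ℕ} [hpp : Fact p.Prime]

theorem crow_own_psl {F : Type} [Field F] [Fintype F] [CharP F p] {n : ℕ} (hn : 3 ≤ n) :
    CRow p (Matrix.ProjectiveSpecialLinearGroup (Fin n) F) := by
  obtain ⟨n, rfl⟩ : ∃ k, n = k + 1 := ⟨n - 1, by omega⟩
  have : Finite (Matrix.ProjectiveSpecialLinearGroup (Fin (n + 1)) F) := Quotient.finite _
  exact crow_own_of_rgd2 (hasRGD2_PSL n (by omega))

theorem crow_own_psp {F : Type} [Field F] [Fintype F] [CharP F p] {m : ℕ} (hm : 2 ≤ m) : CRow p (PSp m F) := by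
  have : Finite (PSp m F) := Quotient.finite _
  exact crow_own_of_rgd2 (hasRGD2_PSp hm)

theorem crow_own_psu {F : Type} [Field F] [Fintype F] [CharP F p] {n q : ℕ} (hF : Fintype.card F = q ^ 2)
    (hn : 4 ≤ n) : CRow p (PSU n F q) := by
  have : Finite (PSU n F q) := Quotient.finite _
  exact crow_own_of_rgd2 (hasRGD2_PSU hF hn)

theorem crow_own_odd {F : Type} [Field F] [Fintype F] [CharP F p] (h2 : (2 : F) ≠ 0) {m : ℕ} (hm : 2 ≤ m) :
    CRow p (Cfsg.POmega F (Cfsg.quadFormOdd m F)) := by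
  have : Finite (Cfsg.POmega F (Cfsg.quadFormOdd m F)) := Quotient.finite _
  exact crow_own_of_rgd2 (hasRGD2_odd h2 hm)

theorem crow_own_plus {F : Type} [Field F] [Fintype F] [CharP F p] {m : ℕ} (hm : 3 ≤ m) :
    CRow p (Cfsg.POmega F (Cfsg.quadFormPlus m F)) := by
  obtain ⟨n, rfl⟩ : ∃ n, m = n + 3 := ⟨m - 3, by omega⟩
  have : Finite (Cfsg.POmega F (Cfsg.quadFormPlus (n + 3) F)) := Quotient.finite _
  exact crow_own_of_rgd2 (hasRGD2_plus n)

/-- the group of dimension `2m + 2` -/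
theorem crow_own_minus {F : Type} [Field F] [Fintype F] [CharP F p] (a b : F)
    (hab : ∀ z₁ z₂ : F, z₁ ^ 2 + a * z₁ * z₂ + b * z₂ ^ 2 = 0 → z₁ = 0 ∧ z₂ = 0) {m : ℕ} (hm : 2 ≤ m) :
    CRow p (Cfsg.POmega F (Cfsg.quadFormMinus m F a b)) := by
  have : Finite (Cfsg.POmega F (Cfsg.quadFormMinus m F a b)) := Quotient.finite _
  exact crow_own_of_rgd2 (hasRGD2_minus' a b hab hm)

theorem crow_own_exceptional {G : Type*} [Group G] [Finite G] (hG : Cfsg.IsExceptionalChevChar p G) : CRow p G := by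
  obtain ⟨G', _, _, h, ⟨e⟩⟩ := hasRGD2_exceptional hG
  exact CRow.of_equiv e (crow_own_of_rgd2 h)

theorem crow_own_twisted {G : Type*} [Group G] [Finite G] (hG : Cfsg.IsTwistedE6D4Char p G) : CRow p G := by
  obtain ⟨G', _, _, h, ⟨e⟩⟩ := hasRGD2_twisted hG
  exact CRow.of_equiv e (crow_own_of_rgd2 h)

end Families

end Cfsg.Agent.H804.CRow
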